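import Cfsg.Agent.Lib.Helper67.LSF.Defs

/-!
# LSF [BWD] (S5286): conjugations by elements of the group are maps of the fusion system
(from [PATH], [RED], [FIXLET], [BWDCORE]).
-/

set_option autoImplicit false

namespace Cfsg.Agent.Lib.Helper97.LSF

open Cfsg Cfsg.Agent.Lib.Helper67.LSF

universe u

theorem pkgBwd : PkgPath.{u} → PkgRed.{u} → PkgFixLet.{u} → PkgBwdCore.{u} → PkgBwd.{u} := by
  intro hPath hRed hFix hCore Ω _ S F g hg P hP φ hφ hconj
  obtain ⟨L, q, hp, rfl⟩ := hPath S F g hg
  obtain ⟨L', hp', hred, hmk⟩ := hRed S F L q hp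
  rw [← hmk] at hconj
  have key : ∀ x : P, lam S ⟨φ x, hφ x⟩ * q = q * lam S ⟨x, hP x.2⟩ ∧
      autF F (lam S ⟨x, hP x.2⟩) (FreeGroup.mk L') = FreeGroup.mk L' := by
    intro x
    have h1 := hconj x
    have h2 : aGen F ⟨φ x, hφ x⟩ *
          (SemidirectProduct.inr q * SemidirectProduct.inl (FreeGroup.mk L') : Ghat F)
        = (SemidirectProduct.inr q * SemidirectProduct.inl (FreeGroup.mk L') : Ghat F) *
          aGen F ⟨x, hP x.2⟩ := by
      rw [h1]; group
    have hr := congrArg SemidirectProduct.right h2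
    have hl := congrArg SemidirectProduct.left h2
    simp only [aGen, SemidirectProduct.mul_right, SemidirectProduct.right_inr,
      SemidirectProduct.right_inl, mul_one] at hr
    simp only [aGen, SemidirectProduct.mul_left, SemidirectProduct.left_inr,
      SemidirectProduct.left_inl, SemidirectProduct.right_inr, SemidirectProduct.right_inl,
      SemidirectProduct.mul_right, one_mul, mul_one, map_one] at hl
    refine ⟨hr, ?_⟩
    have h3 : autF F (lam S ⟨φ x, hφ x⟩) (autF F q (FreeGroup.mk L')) =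
        autF F q (autF F (lam S ⟨x, hP x.2⟩) (FreeGroup.mk L')) := by
      rw [← MulAut.mul_apply, ← map_mul, hr, map_mul, MulAut.mul_apply]
    rw [h3] at hl
    exact (autF F q).injective hl
  refine hCore S F L' q hp' P hP φ hφ ?_ ?_
  · intro x ℓ hℓ
    exact hFix (xperm F (lam S ⟨x, hP x.2⟩)) L' hred (key x).2 ℓ hℓ
  · intro x
    rw [← (key x).1]; group

end Cfsg.Agent.Lib.Helper97.LSF
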