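import Cfsg.Agent.Lib.Helper67.LSF.Defs

/-!
# LSF [BWDCORE] (S5286): along a path whose letters are fixed by `lam P`, conjugation by the
permutation part is a map of the fusion system.
-/

set_option autoImplicit false

namespace Cfsg.Agent.Lib.Helper97.LSF

open Cfsg Cfsg.Agent.Lib.Helper67.LSF

universe u

variable {Ω : Type u} [Group Ω] {S : Subgroup Ω}

theorem lam_inj97 {a b : S} (h : lam S a = lam S b) : a = b := by
  have := congrArg (fun f : Equiv.Perm S => f 1) h
  simpa [lam_apply] using this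

theorem sigma_conj97 {F : FusionSystem S} (i : Idx F) (u : i.P) :
    i.σ * lam S ⟨u, (F.le_of_mem i.mem).1 u.2⟩ * i.σ⁻¹ =
      lam S ⟨i.φ u, (F.le_of_mem i.mem).2 u⟩ := by
  refine Equiv.ext fun x => ?_
  simp only [Equiv.Perm.mul_apply, lam_apply]
  rw [i.hσ]
  simp

theorem mem_Lam97 {F : FusionSystem S} (i : Idx F) (y : S) (h : lam S y ∈ Lam i) :
    (y : Ω) ∈ i.P := by
  obtain ⟨z, hz, hzy⟩ := h
  have := lam_inj97 hzy
  subst this
  exact hz

theorem pkgBwdCore : PkgHom.{u} → PkgBwdCore.{u} := by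
  intro hHom Ω _ S F L q hpath
  induction hpath with
  | nil s =>
    intro P hP φ hφ _ hconj
    have : φ = conjHom P (s : Ω) := by
      refine MonoidHom.ext fun x => ?_
      have h1 := hconj x
      rw [← map_mul, ← map_inv, ← map_mul] at h1
      have h2 := lam_inj97 h1
      have h3 := congrArg (Subtype.val) h2
      simpa [conjHom] using h3.symm
    rw [this]
    exact F.conj_mem hP s.2
  | @a s L q hp ih =>
    intro P hP φ hφ hfix hconj
    let ψ : P →* Ω := (MulAut.conj ((s : Ω)⁻¹)).toMonoidHom.comp φ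
    have hψv : ∀ x : P, ψ x = (s : Ω)⁻¹ * φ x * (s : Ω) := by
      intro x; simp [ψ]
    have hψ : ∀ x : P, ψ x ∈ S := by
      intro x; rw [hψv]; exact S.mul_mem (S.mul_mem (S.inv_mem s.2) (hφ x)) s.2
    have hψmem : ψ ∈ F.Hom P := by
      refine ih P hP ψ hψ hfix ?_
      intro x
      have h1 := hconj x
      have h2 : (⟨ψ x, hψ x⟩ : S) = s⁻¹ * ⟨φ x, hφ x⟩ * s := Subtype.ext (by simp [hψv])
      rw [h2, map_mul, map_mul, ← h1, map_inv]
      group
    have hcomp := F.comp_mem hψmem (F.conj_mem (le_refl S) s.2) hψ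
    have : φ = (conjHom S (s : Ω)).comp (ψ.codRestrict S hψ) := by
      refine MonoidHom.ext fun x => ?_
      simp only [conjHom, MonoidHom.comp_apply, MonoidHom.codRestrict_apply, Subgroup.coe_subtype,
        MulEquiv.coe_toMonoidHom, MulAut.conj_apply, hψv]
      group
    rw [this]; exact hcomp
  | @t i L q hp ih =>
    intro P hP φ hφ hfix hconj
    have hhead : ∀ x : P, q * lam S ⟨x, hP x.2⟩ * q⁻¹ ∈ Lam i := by
      intro x
      have h1 := hfix x _ (List.mem_cons_self ..)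
      dsimp only at h1
      rw [xperm_mk] at h1
      have h2 := eq_of_heq (Sigma.mk.inj h1).2
      rw [QuotientGroup.eq] at h2
      have h3 := (Lam i).inv_mem h2
      convert h3 using 1
      group
    obtain ⟨ψ, hψ, hψeq⟩ := hHom S q P hP (fun x => by
      obtain ⟨y, _, hy⟩ := hhead x
      exact ⟨y, hy.symm⟩)
    have hψP : ∀ x : P, ψ x ∈ i.P := by
      intro x
      have := hhead x
      rw [← hψeq x] at this
      exact mem_Lam97 i _ this
    have hψmem : ψ ∈ F.Hom P :=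
      ih P hP ψ hψ (fun x ℓ hℓ => hfix x ℓ (List.mem_cons_of_mem _ hℓ)) (fun x => (hψeq x).symm)
    have hcomp := F.comp_mem hψmem i.mem hψP
    have : φ = i.φ.comp (ψ.codRestrict i.P hψP) := by
      refine MonoidHom.ext fun x => ?_
      have h1 := hconj x
      have h2 := sigma_conj97 i ⟨ψ x, hψP x⟩
      have h3 : lam S ⟨φ x, hφ x⟩ =
          lam S ⟨i.φ ⟨ψ x, hψP x⟩, (F.le_of_mem i.mem).2 _⟩ := by
        rw [← h1, ← h2]
        have h5 := hψeq x
        rw [show (⟨((⟨ψ x, hψP x⟩ : i.P) : Ω), (F.le_of_mem i.mem).1 (hψP x)⟩ : S) = ⟨ψ x, hψ x⟩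
          from rfl, h5]
        group
      have h4 := lam_inj97 h3
      exact congrArg Subtype.val h4
    rw [this]; exact hcomp
  | @t' i L q hp ih =>
    intro P hP φ hφ hfix hconj
    have hhead : ∀ x : P, i.σ⁻¹ * q * lam S ⟨x, hP x.2⟩ * (i.σ⁻¹ * q)⁻¹ ∈ Lam i := by
      intro x
      have h1 := hfix x _ (List.mem_cons_self ..)
      dsimp only at h1
      rw [xperm_mk] at h1
      have h2 := eq_of_heq (Sigma.mk.inj h1).2
      rw [QuotientGroup.eq] at h2
      have h3 := (Lam i).inv_mem h2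
      convert h3 using 1
      group
    have hφP : ∀ x : P, φ x ∈ i.P := by
      intro x
      have := hhead x
      rw [hconj x] at this
      exact mem_Lam97 i _ this
    let ψ : P →* Ω := i.φ.comp (φ.codRestrict i.P hφP)
    have hψ : ∀ x : P, ψ x ∈ S := fun x => (F.le_of_mem i.mem).2 _
    have hψmem : ψ ∈ F.Hom P := by
      refine ih P hP ψ hψ (fun x ℓ hℓ => hfix x ℓ (List.mem_cons_of_mem _ hℓ)) ?_
      intro x
      have h1 := hconj x
      have h2 := sigma_conj97 i ⟨φ x, hφP x⟩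
      show q * lam S ⟨x, hP x.2⟩ * q⁻¹ = lam S ⟨i.φ ⟨φ x, hφP x⟩, _⟩
      rw [← h2]
      rw [show (⟨((⟨φ x, hφP x⟩ : i.P) : Ω), (F.le_of_mem i.mem).1 (hφP x)⟩ : S) = ⟨φ x, hφ x⟩
        from rfl, ← h1]
      group
    obtain ⟨χ, hχ, hχeq⟩ := F.inv_mem i.mem
    have hr : ∀ x : P, ψ x ∈ i.φ.range := fun x => ⟨⟨φ x, hφP x⟩, rfl⟩
    have hcomp := F.comp_mem hψmem hχ hr
    have : φ = χ.comp (ψ.codRestrict i.φ.range hr) := by
      refine MonoidHom.ext fun x => ?_
      exact (hχeq ⟨φ x, hφP x⟩).symm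
    rw [this]; exact hcomp

end Cfsg.Agent.Lib.Helper97.LSF
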